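import Cfsg.Agent.H60.E83.Diag
import Cfsg.Agent.H828.E83.Rel

/-!
# S5925, gluing (I2), (I3) (helper60)

* `y_pow_one` : `(x t)³ = (x t yⁱ)³ = 1` implies `yⁱ = 1`;
* `glue` : `t`, `t'` with the relations and the same action on `L^y` are equal;
* `conj_all` : uniqueness of the action on `L^{y₀}` up to `C(x₀, y₀)` gives: all triples are conjugate.
-/

set_option autoImplicit false
set_option maxRecDepth 100000

namespace Cfsg.Agent.H60.E83

open Cfsg Cfsg.Lie Cfsg.Lie.ChevalleyDatum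
open Cfsg.Agent.ChevalleyStructure Cfsg.Agent.ChevalleyStructure.CoxeterGeomTypes
open Cfsg.Agent.GpExc.Field Cfsg.Agent.BpExc.TowChev Cfsg.Agent.KFacts.RgdChevCoord Cfsg.Agent.Nodes.RGDChev
open Cfsg.Agent.H942.CB Cfsg.Agent.H942.E8Alc Cfsg.Agent.H942.E8Tab Cfsg.Agent.H288.E8L
open Matrix
open Cfsg.Agent.H828.E83 (Rel)

theorem y_pow_one {G : Type*} [Group G] {x y t : G} (h : Rel x y t) {i : ℕ}
    (hi : x * (t * y ^ i) * (x * (t * y ^ i)) * (x * (t * y ^ i)) = 1) : y ^ i = 1 := by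
  obtain ⟨x11, x1, y5, -, yx, t2, ty', xt'⟩ := h
  have ty : t * y * t = y⁻¹ := by
    have ht : t⁻¹ = t := inv_eq_of_mul_eq_one_right t2
    rw [← ty', ht]
  have xt : (x * t) ^ 3 = 1 := by rw [pow_succ, pow_two]; exact xt'
  replace hi : (x * (t * y ^ i)) ^ 3 = 1 := by rw [pow_succ, pow_two]; exact hi
  obtain ⟨s, hs⟩ : ∃ s, s = y ^ i := ⟨_, rfl⟩
  rw [← hs] at hi ⊢
  have s5 : s ^ 5 = 1 := by rw [hs, ← pow_mul, mul_comm, pow_mul, y5, one_pow]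
  have ht : t⁻¹ = t := inv_eq_of_mul_eq_one_right t2
  have hts : t * s * t = s⁻¹ := by
    have h1 : (t * y * t⁻¹) ^ i = t * y ^ i * t⁻¹ := conj_pow
    rw [ht] at h1
    rw [hs, ← h1, ty, inv_pow]
  have hsx : ∀ n : ℕ, ∃ a : ℕ, 1 ≤ a ∧ y ^ n * x * (y ^ n)⁻¹ = x ^ a := by
    intro n
    induction n with
    | zero => exact ⟨1, le_refl _, by simp⟩
    | succ n ih =>
      obtain ⟨a, ha, h1⟩ := ih
      refine ⟨3 * a, by omega, ?_⟩
      have h2 : y ^ (n + 1) * x * (y ^ (n + 1))⁻¹ = y * (y ^ n * x * (y ^ n)⁻¹) * y⁻¹ := by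
        rw [pow_succ']; group
      rw [h2, h1, ← conj_pow, yx, pow_mul]
  obtain ⟨a, ha, hax⟩ := hsx i
  rw [← hs] at hax
  have hst : s * t = t * s⁻¹ := by
    calc s * t = (t * t) * s * t := by rw [t2, one_mul]
      _ = t * (t * s * t) := by group
      _ = _ := by rw [hts]
  have h1 : x * t * x ^ a * t * x * t * s = 1 := by
    calc x * t * x ^ a * t * x * t * s = x * t * (s * x * s⁻¹) * t * x * t * s := by rw [hax]
      _ = x * t * s * x * (s⁻¹ * t) * x * t * s := by group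
      _ = x * t * s * x * (t * s) * x * t * s := by
        have : s⁻¹ * t = t * s := by
          calc s⁻¹ * t = (t * s * t) * t := by rw [hts]
            _ = t * s * (t * t) := by group
            _ = _ := by rw [t2, mul_one]
        rw [this]
      _ = (x * (t * s)) ^ 3 := by rw [pow_succ, pow_two]; group
      _ = 1 := hi
  have h2 : t * x * t = x⁻¹ * t * x⁻¹ := by
    have h3 : x * t * (x * t) * (x * t) = 1 := by rw [← xt, pow_succ, pow_two]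
    calc t * x * t = x⁻¹ * (x * t * (x * t) * (x * t)) * (t⁻¹ * x⁻¹) := by group
      _ = x⁻¹ * t * x⁻¹ := by rw [h3, ht]; group
  obtain ⟨b, rfl⟩ : ∃ b, a = b + 1 := ⟨a - 1, by omega⟩
  have h3 : x⁻¹ * s⁻¹ * x = t * x ^ b * t := by
    have h4 : s⁻¹ = x * t * x ^ (b + 1) * t * x * t := (eq_inv_of_mul_eq_one_left h1).symm
    calc x⁻¹ * s⁻¹ * x = x⁻¹ * (x * t * x ^ (b + 1) * t * x * t) * x := by rw [h4]
      _ = t * x ^ b * x * (t * x * t) * x := by rw [pow_succ]; group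
      _ = t * x ^ b * x * (x⁻¹ * t * x⁻¹) * x := by rw [h2]
      _ = t * x ^ b * t := by group
  have h5 : (x⁻¹ * s⁻¹ * x) ^ 5 = 1 := by
    have h6 : (x⁻¹ * s⁻¹ * x⁻¹⁻¹) ^ 5 = x⁻¹ * s⁻¹ ^ 5 * x⁻¹⁻¹ := conj_pow
    rw [inv_inv] at h6
    rw [h6, inv_pow, s5]
    group
  have h11 : (x⁻¹ * s⁻¹ * x) ^ 11 = 1 := by
    rw [h3]
    have h6 : (t * x ^ b * t⁻¹) ^ 11 = t * (x ^ b) ^ 11 * t⁻¹ := conj_pow
    rw [ht] at h6
    rw [h6, ← pow_mul, mul_comm b, pow_mul, x11, one_pow, mul_one, t2]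
  have h1' : x⁻¹ * s⁻¹ * x = 1 := by
    generalize x⁻¹ * s⁻¹ * x = e at h5 h11
    have h8 := Nat.dvd_gcd (orderOf_dvd_of_pow_eq_one h5) (orderOf_dvd_of_pow_eq_one h11)
    rw [show Nat.gcd 5 11 = 1 by decide, Nat.dvd_one] at h8
    exact orderOf_eq_one_iff.1 h8
  have h7 : s⁻¹ = 1 := by
    calc s⁻¹ = x * (x⁻¹ * s⁻¹ * x) * x⁻¹ := by group
      _ = 1 := by rw [h1', mul_one, mul_inv_cancel]
  exact inv_eq_one.1 h7

theorem conj_fix {G : Type*} [Group G] {x k : G} (h : k * x = x * k) : k * x * k⁻¹ = x := by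
  rw [h, mul_inv_cancel_right]

theorem conj_conj {G : Type*} [Group G] (g k x : G) : k * g * x * (k * g)⁻¹ = k * (g * x * g⁻¹) * k⁻¹ := by group

theorem rel_conj {G : Type*} [Group G] {x y t : G} (h : Rel x y t) (g : G) :
    Rel (g * x * g⁻¹) (g * y * g⁻¹) (g * t * g⁻¹) := by
  exact h.map (f := (MulAut.conj g).toMonoidHom) (MulAut.conj g).injective

/-- the abstract form of the gluing -/
theorem glue_abs {G : Type*} [Group G] {x y : G} (S : G → G → Prop)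
    (hS : ∀ t t', S t t' → ∃ k : ℕ, t⁻¹ * t' = y ^ k) {t t' : G} (h : Rel x y t) (h' : Rel x y t') (hu : S t t') :
    t = t' := by
  obtain ⟨k, hk⟩ := hS t t' hu
  have h1 : t' = t * y ^ k := by rw [← hk]; group
  have h2 : y ^ k = 1 := y_pow_one h (by rw [← h1]; exact h'.xt)
  rw [h1, h2, mul_one]

/-- the abstract form of the conjugacy -/
theorem conj_abs {G : Type*} [Group G] {x0 y0 t0 : G} (S : G → G → Prop)
    (hS : ∀ t t', S t t' → ∃ k : ℕ, t⁻¹ * t' = y0 ^ k)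
    (hB : ∀ x y t : G, Rel x y t → ∃ g : G, g * x * g⁻¹ = x0 ∧ g * y * g⁻¹ = y0) (h0 : Rel x0 y0 t0)
    (hU : ∀ t : G, Rel x0 y0 t → ∃ k : G, k * x0 = x0 * k ∧ k * y0 = y0 * k ∧ S (k * t * k⁻¹) t0)
    {x y t : G} (h : Rel x y t) : ∃ g : G, g * x * g⁻¹ = x0 ∧ g * y * g⁻¹ = y0 ∧ g * t * g⁻¹ = t0 := by
  obtain ⟨g, hx, hy⟩ := hB x y t h
  have h1 := rel_conj h g
  rw [hx, hy] at h1
  obtain ⟨k, hkx, hky, hk⟩ := hU _ h1
  have h1' := rel_conj h1 k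
  rw [conj_fix hkx, conj_fix hky] at h1'
  have h2 := glue_abs S hS h1' h0 hk
  refine ⟨k * g, ?_, ?_, ?_⟩
  · rw [conj_conj, hx, conj_fix hkx]
  · rw [conj_conj, hy, conj_fix hky]
  · rw [conj_conj, h2]

/-! ### in `E₈(3)` -/

/-- the same action on `L^y` -/
def SameU (y t t' : G8) : Prop := ∀ v : chevE8.Idx → ZMod 3, my y *ᵥ v = v → my t *ᵥ v = my t' *ᵥ v

/-- the hypothesis on `y`: order five, type `A₄A₄` -/
def TypA (y : G8) : Prop := ∃ (Y : List ℕ) (j : Fin 8) (m : Fin 8 → ℤ), Gen Y j m ∧ TorD e8T y 5 (vecL 5 Y)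

theorem typA_alc {y : G8} (h : TorD e8T y 5 (vecL 5 [0, 0, 0, 0, 1, 0, 0, 0])) : TypA y := ⟨_, _, _, gen_alc, h⟩

theorem typA_fr {y : G8} (h : TorD e8T y 5 (vecL 5 [4, 4, 4, 4, 1, 4, 4, 4])) : TypA y := ⟨_, _, _, gen_fr, h⟩

/-- **(I1)** -/
theorem pow_of_same {y : G8} (hy : TypA y) (t t' : G8) (hu : SameU y t t') : ∃ k : ℕ, t⁻¹ * t' = y ^ k := by
  obtain ⟨Y, j, m, hG, hT⟩ := hy
  have hmul : ∀ a b : G8, my (a * b) = my a * my b := fun _ _ => rfl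
  refine pow_of_fix' (c := t⁻¹ * t') hG hT fun v hv => ?_
  rw [hmul, ← Matrix.mulVec_mulVec, ← hu v hv, Matrix.mulVec_mulVec, ← hmul, inv_mul_cancel]
  exact Matrix.one_mulVec v

/-- **gluing**: the action of `t` on `L^y` determines `t` -/
theorem glue {x y t t' : G8} (hy : TypA y) (h : Rel x y t) (h' : Rel x y t') (hu : SameU y t t') : t = t' :=
  glue_abs (SameU y) (pow_of_same hy) h h' hu

/-- **(I3)** all triples with the relations are conjugate -/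
theorem conj_all {x0 y0 : G8} (hy : TypA y0)
    (hB : ∀ x y t : G8, Rel x y t → ∃ g : G8, g * x * g⁻¹ = x0 ∧ g * y * g⁻¹ = y0)
    {t0 : G8} (h0 : Rel x0 y0 t0)
    (hU : ∀ t : G8, Rel x0 y0 t → ∃ k : G8, k * x0 = x0 * k ∧ k * y0 = y0 * k ∧ SameU y0 (k * t * k⁻¹) t0)
    {x y t : G8} (h : Rel x y t) : ∃ g : G8, g * x * g⁻¹ = x0 ∧ g * y * g⁻¹ = y0 ∧ g * t * g⁻¹ = t0 :=
  conj_abs (SameU y0) (pow_of_same hy) hB h0 hU h

end Cfsg.Agent.H60.E83
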