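import Cfsg.Agent.H60.E83.Glue
import Cfsg.Agent.H60.E83.DiagSL
import Cfsg.Agent.H934.E83.Hom
import Cfsg.Agent.H908.E8L.BConj
import Cfsg.Agent.H605.MX.Psi

/-!
# S5925, gluing: `y₀ = φ₁(Fr) φ₂(Fr)` is of type `A₄A₄` (helper60)

`B⁻¹ Fr B = diag(1, w, w², w³, w⁴)` in `SL₅` over the algebraic closure; `p1`, `p2` (helper934) map this diagonal matrix to
`h₃(w) h₄(w³) h₂(w)`, `h₈(w) h₇(w³) h₆(w)`.

* `p1_hE`, `p2_hE` : `φ_k(h(c))`;
* `cX_tD` : the simple roots on `φ₁(D) φ₂(D)`;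
* `exists_B` : the diagonalisation of `Fr`;
* `torD_y0`, `typA_y0`.
-/

set_option autoImplicit false
set_option linter.unusedSectionVars false
set_option maxRecDepth 100000

namespace Cfsg.Agent.H60.E83

open CoxeterSystem Cfsg Cfsg.Lie Cfsg.Lie.ChevalleyDatum
open Cfsg.Agent.ChevalleyStructure Cfsg.Agent.ChevalleyStructure.Elts Cfsg.Agent.ChevalleyStructure.CoxeterGeom
  Cfsg.Agent.ChevalleyStructure.CoxeterGeomTypes Cfsg.Agent.ChevalleyStructure.RootVec Cfsg.Agent.ChevalleyStructure.SL2Hom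
open Cfsg.Agent.Tits.Roots Cfsg.Agent.Tits.Core Cfsg.Agent.Nodes Cfsg.Agent.Nodes.Coroot Cfsg.Agent.Nodes.RGDChev
open Cfsg.Agent.GpExc.Field Cfsg.Agent.BpExc.TowChev Cfsg.Agent.H129.TorusChar
open Cfsg.Agent.KFacts.RgdChevCoord
open Cfsg.Agent.Nodes.RGDFoldSL (hS wS)
open Cfsg.Agent.H81.TorOrth (ps ps_up ps_lo ps_hS_mem)
open Cfsg.Agent.H942.E8Tab Cfsg.Agent.H942.E8Alc Cfsg.Agent.H942.CB Cfsg.Agent.H944.Tab Cfsg.Agent.H944.Kac
open Cfsg.Agent.H288.E8L Cfsg.Agent.H540.E8C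
open Cfsg.Agent.H934.E83 (hp8 r1 s1 r2 p1 p2 coe_p1_tv coe_p2_tv comm_eq emb_p1 emb_p2)
open Cfsg.Agent.H908.E8L (Fr FrM)
open Matrix

universe u

/-! ### The values on `h(c)` -/

section vals

variable {K : Type u} [Field K]

theorem hS_def (t : K) : hS t = up t * (lo (-t⁻¹) * up t) * (up (-1) * (lo (-(-1 : K)⁻¹) * up (-1))) := rfl

theorem hE_def {a b : Fin 5} (h : a ≠ b) (t : K) :
    hE h t = tv h t * (tv h.symm (-t⁻¹) * tv h t) * (tv h (-1) * (tv h.symm (-(-1 : K)⁻¹) * tv h (-1))) := rfl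

theorem map_hE {G : Type*} [Group G] (f : SpecialLinearGroup (Fin 5) K →* G) (g : SpecialLinearGroup (Fin 2) K →* G)
    {a b : Fin 5} (h : a ≠ b) (hu : ∀ t, f (tv h t) = g (up t)) (hl : ∀ t, f (tv h.symm t) = g (lo t)) (t : K) :
    f (hE h t) = g (hS t) := by
  rw [hS_def, hE_def]
  simp only [map_mul, hu, hl]

theorem p1_hE {a b : Fin 5} (h : a ≠ b) (hs : s1 a b = 1 ∧ s1 b a = 1) (hr : r1 b a = chevE8.neg (r1 a b))
    (hl : r1 a b < chevE8.nroots) (c : K) : p1 K (hE h c) = ps hp8 hl (hS c) := by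
  refine map_hE _ _ h (fun t => ?_) (fun t => ?_) c
  · rw [ps_up]
    apply Subtype.ext
    rw [coe_p1_tv, hs.1, Int.cast_one, one_mul]
    rfl
  · rw [ps_lo]
    apply Subtype.ext
    rw [coe_p1_tv, hs.2, Int.cast_one, one_mul, hr]
    rfl

theorem p2_hE {a b : Fin 5} (h : a ≠ b) (hr : r2 b a = chevE8.neg (r2 a b)) (hl : r2 a b < chevE8.nroots) (c : K) :
    p2 K (hE h c) = ps hp8 hl (hS c) := by
  refine map_hE _ _ h (fun t => ?_) (fun t => ?_) c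
  · rw [ps_up]
    apply Subtype.ext
    rw [coe_p2_tv]
    rfl
  · rw [ps_lo]
    apply Subtype.ext
    rw [coe_p2_tv, hr]
    rfl

end vals

/-! ### The torus element -/

theorem sl : ∀ j : Fin 8, chevE8.simple (j : ℕ) < chevE8.nroots := fun j => NPerm.simple_lt hp8.inList (lt_rank hp8 j)

/-- `h_j(c)` -/
noncomputable def hh (j : Fin 8) (c : K8) : GK := ps hp8 (sl j) (hS c)

theorem hh_mem (j : Fin 8) {c : K8} (hc : c ≠ 0) : hh j c ∈ TT chevE8 K8 := ps_hS_mem hp8 (sl j) hc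

theorem cX_hh (j : Fin 8) {c : K8} (hc : c ≠ 0) (i : Fin 8) :
    cX e8T (hh j c) (sr i) = c ^ chevE8.cartan j (chevE8.simple i) := by
  have hf := finite_W hp8 cs8
  show cX hp8 (ps hp8 (sl j) (hS c)) (sr i) = _
  rw [Cfsg.Agent.H605.MX.cX_hS hp8 cs8 locFin8 3 (sl j) hc, vec_simple hp8 j, cpr_sr, ← vec_simple hp8 i,
    pairing_vec hp8 j (sl i)]

theorem ps_eq {s : ℕ} (j : Fin 8) (hs : s < chevE8.nroots) (e : s = chevE8.simple j) (c : K8) :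
    ps hp8 hs (hS c) = hh j c := by
  subst e
  rfl

theorem tab_p : (r1 1 2 = chevE8.simple (2 : Fin 8) ∧ r1 2 3 = chevE8.simple (3 : Fin 8) ∧ r1 3 4 = chevE8.simple (1 : Fin 8)) ∧
    (r2 1 2 = chevE8.simple (7 : Fin 8) ∧ r2 2 3 = chevE8.simple (6 : Fin 8) ∧ r2 3 4 = chevE8.simple (5 : Fin 8)) := by
  decide +kernel

theorem p1_Dg (w : K8) : p1 K8 (Dg w) = hh 2 w * hh 3 (w ^ 3) * hh 1 w := by
  rw [Dg, map_mul, map_mul,
    p1_hE (show (1 : Fin 5) ≠ 2 by decide) (by decide) (by decide +kernel) (by decide +kernel),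
    p1_hE (show (2 : Fin 5) ≠ 3 by decide) (by decide) (by decide +kernel) (by decide +kernel),
    p1_hE (show (3 : Fin 5) ≠ 4 by decide) (by decide) (by decide +kernel) (by decide +kernel),
    ps_eq 2 _ tab_p.1.1, ps_eq 3 _ tab_p.1.2.1, ps_eq 1 _ tab_p.1.2.2]

theorem p2_Dg (w : K8) : p2 K8 (Dg w) = hh 7 w * hh 6 (w ^ 3) * hh 5 w := by
  rw [Dg, map_mul, map_mul,
    p2_hE (show (1 : Fin 5) ≠ 2 by decide) (by decide +kernel) (by decide +kernel),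
    p2_hE (show (2 : Fin 5) ≠ 3 by decide) (by decide +kernel) (by decide +kernel),
    p2_hE (show (3 : Fin 5) ≠ 4 by decide) (by decide +kernel) (by decide +kernel),
    ps_eq 7 _ tab_p.2.1, ps_eq 6 _ tab_p.2.2.1, ps_eq 5 _ tab_p.2.2.2]

/-- the torus element -/
noncomputable def tD (w : K8) : GK := p1 K8 (Dg w) * p2 K8 (Dg w)

theorem tD_mem {w : K8} (hw : w ≠ 0) : tD w ∈ TT chevE8 K8 := by
  rw [tD, p1_Dg, p2_Dg]
  have h3 := pow_ne_zero 3 hw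
  exact mul_mem (mul_mem (mul_mem (hh_mem _ hw) (hh_mem _ h3)) (hh_mem _ hw))
    (mul_mem (mul_mem (hh_mem _ hw) (hh_mem _ h3)) (hh_mem _ hw))

/-- the exponents -/
def ex (i : Fin 8) : ℤ :=
  chevE8.cartan (2 : Fin 8) (chevE8.simple i) + 3 * chevE8.cartan (3 : Fin 8) (chevE8.simple i) +
    chevE8.cartan (1 : Fin 8) (chevE8.simple i) + (chevE8.cartan (7 : Fin 8) (chevE8.simple i) +
    3 * chevE8.cartan (6 : Fin 8) (chevE8.simple i) + chevE8.cartan (5 : Fin 8) (chevE8.simple i))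

theorem cX_tD {w : K8} (hw : w ≠ 0) (i : Fin 8) : cX e8T (tD w) (sr i) = w ^ ex i := by
  have h3 := pow_ne_zero 3 hw
  have e3 : ∀ n : ℤ, (w ^ 3) ^ n = w ^ (3 * n) := fun n => by rw [_root_.zpow_mul]; norm_cast
  rw [tD, p1_Dg, p2_Dg,
    cX_mul e8T (mul_mem (mul_mem (hh_mem _ hw) (hh_mem _ h3)) (hh_mem _ hw))
      (mul_mem (mul_mem (hh_mem _ hw) (hh_mem _ h3)) (hh_mem _ hw)),
    cX_mul e8T (mul_mem (hh_mem _ hw) (hh_mem _ h3)) (hh_mem _ hw), cX_mul e8T (hh_mem _ hw) (hh_mem _ h3),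
    cX_mul e8T (mul_mem (hh_mem _ hw) (hh_mem _ h3)) (hh_mem _ hw), cX_mul e8T (hh_mem _ hw) (hh_mem _ h3),
    cX_hh _ hw, cX_hh _ h3, cX_hh _ hw, cX_hh _ hw, cX_hh _ h3, cX_hh _ hw, e3, e3, ← zpow_add₀ hw, ← zpow_add₀ hw,
    ← zpow_add₀ hw, ← zpow_add₀ hw, ← zpow_add₀ hw]
  rfl

theorem ex_tab : ∀ i : Fin 8, (5 : ℤ) ∣ ex i - ((vecL 5 [4, 4, 4, 4, 1, 4, 4, 4] i).val : ℤ) := by decide +kernel

theorem cX_tD' {w : K8} (hw : IsPrimitiveRoot w 5) (i : Fin 8) :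
    cX e8T (tD w) (sr i) = w ^ (vecL 5 [4, 4, 4, 4, 1, 4, 4, 4] i).val := by
  have hw0 : w ≠ 0 := hw.ne_zero (by norm_num)
  rw [cX_tD hw0, ← zpow_natCast]
  have h := (hw.zpow_eq_one_iff_dvd _).2 (by exact_mod_cast ex_tab i)
  rw [zpow_sub₀ hw0, div_eq_one_iff_eq (zpow_ne_zero _ hw0)] at h
  exact h

/-! ### The diagonalisation of `Fr` -/

/-- the columns `Frⁱ u` -/
def Um : Matrix (Fin 5) (Fin 5) (ZMod 3) :=
  !![1, 1, 0, 0, 0; 1, 0, 1, 0, 1; 0, 0, 0, 2, 1; 0, 1, 0, 0, 2; 0, 0, 2, 2, 2]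

/-- the inverse of `Um` -/
def Ui : Matrix (Fin 5) (Fin 5) (ZMod 3) :=
  !![2, 2, 1, 1, 2; 2, 1, 2, 2, 1; 2, 1, 0, 1, 0; 2, 1, 1, 1, 1; 2, 1, 2, 1, 1]

/-- the cyclic shift -/
def Pm : Matrix (Fin 5) (Fin 5) (ZMod 3) :=
  !![0, 0, 0, 0, 1; 1, 0, 0, 0, 0; 0, 1, 0, 0, 0; 0, 0, 1, 0, 0; 0, 0, 0, 1, 0]

theorem um_tab : FrM * Um = Um * Pm ∧ Ui * Um = 1 := by decide +kernel

theorem Pm_apply (k j : Fin 5) : Pm k j = if k - 1 = j then 1 else 0 := by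
  fin_cases k <;> fin_cases j <;> rfl

/-- the map to the closure -/
noncomputable abbrev fm : ZMod 3 →+* K8 := algebraMap (ZMod 3) K8

/-- the transposed Vandermonde matrix -/
noncomputable def Wm (w : K8) : Matrix (Fin 5) (Fin 5) K8 := (vandermonde fun i : Fin 5 => (w ^ 4) ^ (i : ℕ))ᵀ

/-- the diagonal matrix -/
noncomputable def Dm (w : K8) : Matrix (Fin 5) (Fin 5) K8 := Matrix.diagonal ![1, w, w ^ 2, w ^ 3, w ^ 4]

theorem Wm_apply (w : K8) (k i : Fin 5) : Wm w k i = ((w ^ 4) ^ (i : ℕ)) ^ (k : ℕ) := rfl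

theorem vec_pow (w : K8) : ∀ i : Fin 5, (![1, w, w ^ 2, w ^ 3, w ^ 4] : Fin 5 → K8) i = w ^ (i : ℕ) := by
  intro i
  fin_cases i <;> simp

theorem mod_tab : ∀ k i : Fin 5, (4 * ((i : ℕ) * ((k - 1 : Fin 5) : ℕ))) % 5 = (4 * ((i : ℕ) * (k : ℕ)) + i) % 5 := by
  decide +kernel

theorem P_W {w : K8} (hw : w ^ 5 = 1) : Pm.map fm * Wm w = Wm w * Dm w := by
  have key : ∀ a b : ℕ, a % 5 = b % 5 → w ^ a = w ^ b := by
    intro a b h
    rw [← Nat.mod_add_div a 5, ← Nat.mod_add_div b 5, pow_add, pow_add, pow_mul, pow_mul, hw, one_pow, one_pow, h]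
  ext k i
  rw [Dm, Matrix.mul_diagonal, vec_pow, Matrix.mul_apply]
  have h1 : ∀ j : Fin 5, (Pm.map fm) k j * Wm w j i = if k - 1 = j then Wm w j i else 0 := by
    intro j
    rw [Matrix.map_apply, Pm_apply]
    split_ifs
    · rw [map_one, one_mul]
    · rw [map_zero, zero_mul]
  rw [Finset.sum_congr rfl fun j _ => h1 j, Finset.sum_ite_eq, if_pos (Finset.mem_univ _), Wm_apply, Wm_apply,
    ← pow_mul, ← pow_mul, ← pow_mul, ← pow_mul, ← pow_add]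
  exact key _ _ (mod_tab k i)

theorem det_Wm {w : K8} (hw : IsPrimitiveRoot w 5) : (Wm w).det ≠ 0 := by
  rw [Wm, Matrix.det_transpose, Matrix.det_vandermonde_ne_zero_iff]
  intro i j h
  exact Fin.ext ((hw.pow_of_coprime 4 (by decide)).pow_inj i.2 j.2 h)

/-- **the diagonalisation** -/
theorem exists_B {w : K8} (hw : IsPrimitiveRoot w 5) :
    ∃ B : SpecialLinearGroup (Fin 5) K8, SpecialLinearGroup.map fm Fr * B = B * Dg w := by
  obtain ⟨hU, hUi⟩ := um_tab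
  set V : Matrix (Fin 5) (Fin 5) K8 := Um.map fm * Wm w with hV
  have hF : FrM.map fm * V = V * Dm w := by
    rw [hV, ← Matrix.mul_assoc, ← Matrix.map_mul, hU, Matrix.map_mul, Matrix.mul_assoc, P_W hw.pow_eq_one, Matrix.mul_assoc]
  have hd : V.det ≠ 0 := by
    rw [hV, Matrix.det_mul]
    refine mul_ne_zero (fun h => ?_) (det_Wm hw)
    have h1 : (Ui.map fm * Um.map fm).det = 1 := by
      rw [← Matrix.map_mul, hUi, Matrix.map_one _ (map_zero _) (map_one _), Matrix.det_one]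
    rw [Matrix.det_mul, h, mul_zero] at h1
    exact zero_ne_one h1
  set E : Matrix (Fin 5) (Fin 5) K8 := Matrix.diagonal ![(V.det)⁻¹, 1, 1, 1, 1] with hE'
  have hB : (V * E).det = 1 := by
    rw [Matrix.det_mul, hE', Matrix.det_diagonal, Fin.prod_univ_five]
    simp [hd]
  refine ⟨⟨V * E, hB⟩, ?_⟩
  apply Subtype.ext
  show (SpecialLinearGroup.map fm Fr).1 * (V * E) = (V * E) * (Dg w).1
  rw [coe_Dg hw.pow_eq_one]
  have h1 : (SpecialLinearGroup.map fm Fr).1 = FrM.map fm := rfl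
  have h2 : Dm w * E = E * Dm w := by
    rw [Dm, hE', Matrix.diagonal_mul_diagonal, Matrix.diagonal_mul_diagonal]
    congr 1
    funext i
    exact mul_comm _ _
  rw [h1, ← Matrix.mul_assoc, hF, Matrix.mul_assoc V, h2, ← Matrix.mul_assoc, Dm]

/-! ### the conclusion -/

/-- `y₀` -/
noncomputable def y0 : G8 := p1 (ZMod 3) Fr * p2 (ZMod 3) Fr

theorem torD_y0 : TorD e8T y0 5 (vecL 5 [4, 4, 4, 4, 1, 4, 4, 4]) := by
  have hNne : NeZero ((5 : ℕ) : K8) := ⟨by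
    have h3 : ((3 : ℕ) : K8) = 0 := CharP.cast_eq_zero K8 3
    have h5 : ((5 : ℕ) : K8) = ((3 : ℕ) : K8) * 2 - 1 := by push_cast; norm_num
    rw [h5, h3, zero_mul, zero_sub]
    exact neg_ne_zero.2 one_ne_zero⟩
  obtain ⟨w, hw⟩ := HasEnoughRootsOfUnity.exists_primitiveRoot K8 5
  have hw0 : w ≠ 0 := hw.ne_zero (by norm_num)
  obtain ⟨B, hB⟩ := exists_B hw
  refine ⟨p1 K8 B * p2 K8 B, tD w, w, hw, ?_, tD_mem hw0, fun i => cX_tD' hw i⟩
  have h1 : emb e8T.inList (algebraMap (ZMod 3) K8) y0 = p1 K8 (SpecialLinearGroup.map fm Fr) *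
      p2 K8 (SpecialLinearGroup.map fm Fr) := by
    rw [y0, map_mul]
    exact congrArg₂ (· * ·) (emb_p1 fm Fr) (emb_p2 fm Fr)
  have h2 : emb e8T.inList (algebraMap (ZMod 3) K8) y0 * (p1 K8 B * p2 K8 B) = (p1 K8 B * p2 K8 B) * tD w := by
    rw [h1, tD]
    calc p1 K8 (SpecialLinearGroup.map fm Fr) * p2 K8 (SpecialLinearGroup.map fm Fr) * (p1 K8 B * p2 K8 B) =
        p1 K8 (SpecialLinearGroup.map fm Fr) * (p2 K8 (SpecialLinearGroup.map fm Fr) * p1 K8 B) * p2 K8 B := by group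
      _ = p1 K8 (SpecialLinearGroup.map fm Fr) * (p1 K8 B * p2 K8 (SpecialLinearGroup.map fm Fr)) * p2 K8 B := by
        rw [comm_eq]
      _ = p1 K8 (SpecialLinearGroup.map fm Fr * B) * p2 K8 (SpecialLinearGroup.map fm Fr * B) := by
        rw [map_mul, map_mul]; group
      _ = p1 K8 B * (p1 K8 (Dg w) * p2 K8 B) * p2 K8 (Dg w) := by
        rw [hB, map_mul, map_mul]; group
      _ = p1 K8 B * (p2 K8 B * p1 K8 (Dg w)) * p2 K8 (Dg w) := by rw [comm_eq]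
      _ = _ := by group
  rw [mul_assoc, h2, inv_mul_cancel_left]

theorem typA_y0 : TypA (p1 (ZMod 3) Fr * p2 (ZMod 3) Fr) := typA_fr torD_y0

end Cfsg.Agent.H60.E83
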